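import Mathlib

set_option autoImplicit false

namespace CF.Csc
open Subgroup

theorem c_inv {X : Type*} [Group X] [Finite X] (N : Subgroup X) (hi : N.index = 2) {g : X}
    (hg : g ∉ N) : ∃ k : ℕ, orderOf (g ^ k) = 2 := by
  have hd : 2 ∣ orderOf g := by
    by_contra hn
    obtain ⟨k, hk⟩ : Odd (orderOf g) := Nat.odd_iff.mpr (by omega)
    have e : g = ((g * g) ^ k)⁻¹ := by
      have := pow_orderOf_eq_one g
      rw [hk, pow_succ, pow_mul, pow_two] at this
      exact eq_inv_of_mul_eq_one_right this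
    exact hg (e ▸ N.inv_mem (N.pow_mem (mul_self_mem_of_index_two hi g) k))
  exact ⟨_, orderOf_pow_orderOf_div (orderOf_pos g).ne' hd⟩

theorem count {X : Type*} [Group X] [Finite X] (N : Subgroup X) (hi : N.index = 2)
    (hc : ∀ z t : X, orderOf z = 2 → orderOf t = 2 → ∃ n ∈ N, n * z * n⁻¹ = t) :
    ∀ g ∉ N, ∀ s t : X, orderOf s = 2 → orderOf t = 2 → g * s = s * g → g * t = t * g → s = t := by
  intro c hcN s t hs ht cs ct
  choose n hn hn' using fun z : {z : X // orderOf z = 2} => hc s z.1 hs z.2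
  let P := {p : X × {z : X // orderOf z = 2} // p.1 ∉ N ∧ p.1 * p.2.1 = p.2.1 * p.1}
  let f : P → {g : X // g ∉ N} := fun p => ⟨p.1.1, p.2.1⟩
  have fs : Function.Surjective f := by
    rintro ⟨g, hg⟩
    obtain ⟨k, hk⟩ := c_inv N hi hg
    exact ⟨⟨(g, ⟨g ^ k, hk⟩), hg, (Commute.self_pow g k).eq⟩, rfl⟩
  let j : P → {g : X // g ∉ N} := fun p => ⟨p.1.1 * n p.1.2, fun h => p.2.1 <| by
    simpa using N.mul_mem h (N.inv_mem (hn p.1.2))⟩
  have key : ∀ p : P, (j p).1 * s * (j p).1⁻¹ = p.1.2.1 := by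
    rintro ⟨⟨g, z⟩, hg, e⟩
    simp only at e
    show g * n z * s * (g * n z)⁻¹ = z.1
    calc g * n z * s * (g * n z)⁻¹ = g * (n z * s * (n z)⁻¹) * g⁻¹ := by group
      _ = z.1 := by rw [hn', e]; group
  have ji : Function.Injective j := by
    intro p q e
    have e2 : p.1.2 = q.1.2 := Subtype.ext (by rw [← key p, ← key q, e])
    have e1 : p.1.1 * n p.1.2 = q.1.1 * n q.1.2 := congrArg Subtype.val e
    rw [e2] at e1
    exact Subtype.ext (Prod.ext (mul_right_cancel e1) e2)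
  have fb := fs.bijective_of_nat_card_le (Nat.card_le_card_of_injective j ji)
  have := fb.1 (a₁ := ⟨(c, ⟨s, hs⟩), hcN, cs⟩) (a₂ := ⟨(c, ⟨t, ht⟩), hcN, ct⟩) rfl
  exact congrArg (fun p : P => p.1.2.1) this

end CF.Csc
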