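import Mathlib

open Subgroup

namespace CF.Csc

theorem L_mem_smul {G : Type*} [Group G] {p : ℕ} (y : G) (P : Sylow p G) (h : G) :
    h ∈ (y • P : Sylow p G) ↔ y⁻¹ * h * y ∈ P := by
  change h ∈ ((y • P : Sylow p G) : Subgroup G) ↔ y⁻¹ * h * y ∈ (P : Subgroup G)
  rw [Sylow.coe_subgroup_smul, Subgroup.mem_pointwise_smul_iff_inv_smul_mem]
  simp [MulAut.smul_def]

theorem L_odd_mem {G : Type*} [Group G] (N : Subgroup G) (hi : N.index = 2) (h : G)
    (ho : Odd (orderOf h)) : h ∈ N := by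
  obtain ⟨k, hk⟩ := ho
  have h2 : h ^ 2 ∈ N := sq_mem_of_index_two hi h
  have h3 : h = ((h ^ 2) ^ k)⁻¹ := by
    have h4 := pow_orderOf_eq_one h
    rw [hk, pow_succ, pow_mul] at h4
    exact eq_inv_of_mul_eq_one_right h4
  rw [h3]
  exact N.inv_mem (N.pow_mem h2 k)

theorem L_pow_notMem {G : Type*} [Group G] (N : Subgroup G) (hi : N.index = 2) (g : G)
    (hg : g ∉ N) (m : ℕ) (hm : Odd m) : g ^ m ∉ N := by
  obtain ⟨k, rfl⟩ := hm
  intro h
  rw [pow_succ, pow_mul] at h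
  exact hg ((N.mul_mem_cancel_left (N.pow_mem (sq_mem_of_index_two hi g) k)).1 h)

theorem L_exists {G : Type*} [Group G] [Finite G] (N : Subgroup G) (hi : N.index = 2)
    (T : Sylow 2 G) : ∃ x ∈ T, x ∉ N := by
  by_contra h
  push Not at h
  have hle : (T : Subgroup G) ≤ N := fun x hx => h x hx
  have h1 := index_dvd_of_le hle
  rw [hi] at h1
  exact T.not_dvd_index h1

theorem L_relIndex {G : Type*} [Group G] (N : Subgroup G) (hi : N.index = 2) (Y : Subgroup G)
    (x : G) (hxY : x ∈ Y) (hxN : x ∉ N) : N.relIndex Y = 2 := by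
  have hN : N.Normal := normal_of_index_eq_two hi
  have hd : N.relIndex Y ∣ 2 := hi ▸ relIndex_dvd_index_of_normal N Y
  rcases (Nat.dvd_prime Nat.prime_two).1 hd with h | h
  · exact absurd (relIndex_eq_one.1 h hxY) hxN
  · exact h

theorem L_cen {Y : Type*} [Group Y] [Finite Y] (N : Subgroup Y) (hi : N.index = 2)
    (hI : ∀ z : Y, orderOf z = 2 → z ∈ N)
    (hu : ∀ g ∉ N, ∀ s t : Y, orderOf s = 2 → orderOf t = 2 → g * s = s * g → g * t = t * g →
      s = t)
    (T : Sylow 2 Y) (hn : ∀ y u : Y, u ∈ T → u ∈ N → y * u * y⁻¹ ∈ T) (w : Y) (hwT : w ∈ T)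
    (hw2 : orderOf w = 2) (hwc : ∀ u ∈ T, u * w = w * u) (y₀ : Y) : y₀ * w = w * y₀ := by
  have hN : N.Normal := normal_of_index_eq_two hi
  suffices h : (centralizer ({w} : Set Y)).index = 1 by
    rw [index_eq_one] at h
    have h1 : y₀ ∈ centralizer ({w} : Set Y) := h ▸ mem_top y₀
    exact mem_centralizer_singleton_iff.1 h1
  by_contra hne
  obtain ⟨p, hp, hpd⟩ := Nat.exists_prime_and_dvd hne
  haveI := Fact.mk hp
  have key : ∃ P : Sylow p Y, (P : Subgroup Y) ≤ centralizer ({w} : Set Y) := by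
    by_cases h2 : p = 2
    · subst h2
      exact ⟨T, fun u hu => mem_centralizer_singleton_iff.2 (hwc u hu)⟩
    obtain ⟨P⟩ : Nonempty (Sylow p Y) := inferInstance
    have hPN : (P : Subgroup Y) ≤ N := by
      intro h hh
      obtain ⟨k, hk⟩ := IsPGroup.iff_orderOf.1 P.isPGroup' ⟨h, hh⟩
      refine L_odd_mem N hi h ?_
      have h3 : orderOf h = p ^ k := by rw [← hk]; exact (Subgroup.orderOf_coe (⟨h, hh⟩ : (P : Subgroup Y)))
      rw [h3]
      exact (hp.odd_of_ne_two h2).pow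
    have hF := Sylow.normalizer_sup_eq_top' P hPN
    obtain ⟨g, hgP, hgN⟩ : ∃ g ∈ normalizer (P : Set Y), g ∉ N := by
      by_contra h
      push Not at h
      have hle : normalizer (P : Set Y) ≤ N := fun x hx => h x hx
      rw [sup_of_le_right hle] at hF
      rw [hF, index_top] at hi
      exact absurd hi (by norm_num)
    obtain ⟨k, m, hm, hkm⟩ := Nat.exists_eq_two_pow_mul_odd (orderOf_pos g).ne'
    have hg2N : g ^ m ∉ N := L_pow_notMem N hi g hgN m hm
    have hg2P : g ^ m ∈ normalizer (P : Set Y) := pow_mem hgP m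
    have hg2o : (g ^ m) ^ (2 ^ k) = 1 := by
      rw [← pow_mul, mul_comm, ← hkm, pow_orderOf_eq_one]
    generalize g ^ m = a at hg2N hg2P hg2o
    obtain ⟨j, -, hj⟩ := (Nat.dvd_prime_pow Nat.prime_two).1 (orderOf_dvd_of_pow_eq_one hg2o)
    have hj0 : j ≠ 0 := by
      rintro rfl
      rw [pow_zero, orderOf_eq_one_iff] at hj
      exact hg2N (hj ▸ N.one_mem)
    obtain ⟨i, rfl⟩ := Nat.exists_eq_succ_of_ne_zero hj0
    have hz2 : orderOf (a ^ (2 ^ i)) = 2 := by
      refine orderOf_eq_prime ?_ ?_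
      · rw [← pow_mul, ← pow_succ, ← hj, pow_orderOf_eq_one]
      · refine pow_ne_one_of_lt_orderOf (by positivity) ?_
        rw [hj]
        exact Nat.pow_lt_pow_right (by norm_num) (Nat.lt_succ_self i)
    have haz : a * a ^ (2 ^ i) = a ^ (2 ^ i) * a := by rw [← pow_succ, ← pow_succ']
    have hzP : a ^ (2 ^ i) ∈ normalizer (P : Set Y) := pow_mem hg2P _
    generalize a ^ (2 ^ i) = z at hz2 haz hzP
    obtain ⟨T', hT'⟩ :=
      (IsPGroup.of_card (p := 2) ((Nat.card_zpowers a).trans hj)).exists_le_sylow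
    obtain ⟨y, hy⟩ := MulAction.exists_smul_eq Y T T'
    have haT : y⁻¹ * a * y ∈ T := by
      rw [← L_mem_smul, hy]
      exact hT' (mem_zpowers a)
    have hzw : z = y * w * y⁻¹ := by
      refine hu a hg2N _ _ hz2 ?_ haz ?_
      · rw [← hw2]
        exact (MulAut.conj y).orderOf_eq w
      · have h5 := hwc _ haT
        calc a * (y * w * y⁻¹) = y * (y⁻¹ * a * y * w) * y⁻¹ := by group
          _ = y * (w * (y⁻¹ * a * y)) * y⁻¹ := by rw [h5]
          _ = y * w * y⁻¹ * a := by group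
    have hzT : z ∈ T := hzw ▸ hn y w hwT (hI w hw2)
    have hdis := IsPGroup.disjoint_of_ne p 2 h2 _ _ P.isPGroup' T.isPGroup'
    have hcomm : ∀ h ∈ P, h * z = z * h := by
      intro h hh
      have c1 : h * z * h⁻¹ * z⁻¹ ∈ (P : Subgroup Y) := by
        have c2 : z * h⁻¹ * z⁻¹ ∈ (P : Subgroup Y) :=
          ((mem_normalizer_iff.1 hzP) h⁻¹).1 ((P : Subgroup Y).inv_mem hh)
        have c3 := (P : Subgroup Y).mul_mem hh c2
        simpa [mul_assoc] using c3
      have c4 : h * z * h⁻¹ * z⁻¹ ∈ (T : Subgroup Y) :=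
        (T : Subgroup Y).mul_mem (hn h z hzT (hI z hz2)) ((T : Subgroup Y).inv_mem hzT)
      have c5 : h * z * h⁻¹ * z⁻¹ = 1 := disjoint_def.1 hdis c1 c4
      calc h * z = h * z * h⁻¹ * z⁻¹ * (z * h) := by group
        _ = z * h := by rw [c5, one_mul]
    refine ⟨y⁻¹ • P, fun u hu' => mem_centralizer_singleton_iff.2 ?_⟩
    have h6 := hcomm _ ((L_mem_smul y⁻¹ P u).1 hu')
    rw [hzw, inv_inv] at h6
    calc u * w = y⁻¹ * (y * u * y⁻¹ * (y * w * y⁻¹)) * y := by group
      _ = y⁻¹ * (y * w * y⁻¹ * (y * u * y⁻¹)) * y := by rw [h6]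
      _ = w * u := by group
  obtain ⟨P, hP⟩ := key
  exact P.not_dvd_index (hpd.trans (index_dvd_of_le hP))

theorem L_central {G : Type*} [Group G] [Finite G] (T : Sylow 2 G) (x : G) (hx : x ∈ T)
    (hx1 : x ≠ 1) : ∃ w ∈ T, orderOf w = 2 ∧ ∀ u ∈ T, u * w = w * u := by
  haveI : Nontrivial (T : Subgroup G) :=
    ⟨⟨⟨x, hx⟩, 1, fun h => hx1 (congrArg Subtype.val h)⟩⟩
  haveI := T.isPGroup'.center_nontrivial
  have hZ : IsPGroup 2 (center (T : Subgroup G)) := T.isPGroup'.to_subgroup _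
  obtain ⟨n, hn0, hn⟩ := hZ.nontrivial_iff_card.1 inferInstance
  obtain ⟨w, hw⟩ := exists_prime_orderOf_dvd_card' (G := center (T : Subgroup G)) 2
    (hn ▸ dvd_pow_self 2 hn0.ne')
  refine ⟨((w : (T : Subgroup G)) : G), (w : (T : Subgroup G)).2, ?_, fun u hu => ?_⟩
  · rw [Subgroup.orderOf_coe, Subgroup.orderOf_coe, hw]
  · exact congrArg Subtype.val (mem_center_iff.1 w.2 ⟨u, hu⟩)

theorem loc {X : Type*} [Group X] [Finite X] (N : Subgroup X) (hi : N.index = 2) (hI : ∀ z : X, orderOf z = 2 → z ∈ N) (hc : ∀ z t : X, orderOf z = 2 → orderOf t = 2 → ∃ n ∈ N, n * z * n⁻¹ = t) (hu : ∀ g ∉ N, ∀ s t : X, orderOf s = 2 → orderOf t = 2 → g * s = s * g → g * t = t * g → s = t) (T : Sylow 2 X) : ∀ s ∈ T, ∀ t ∈ T, orderOf s = 2 → orderOf t = 2 → (∀ u ∈ T, u ∈ N → u * s = s * u) → (∀ u ∈ T, u ∈ N → u * t = t * u) → s = t := by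
  have hN : N.Normal := normal_of_index_eq_two hi
  obtain ⟨x, hxT, hxN⟩ := L_exists N hi T
  obtain ⟨w, hwT, hw2, hwc⟩ := L_central T x hxT (fun h => hxN (h ▸ N.one_mem))
  have hTY : (T : Subgroup X) ≤ normalizer (((T : Subgroup X) ⊓ N : Subgroup X) : Set X) := by
    intro u hu'
    rw [mem_normalizer_iff]
    intro h
    constructor
    · rintro ⟨h1, h2⟩
      exact ⟨(T : Subgroup X).mul_mem ((T : Subgroup X).mul_mem hu' h1)
        ((T : Subgroup X).inv_mem hu'), hN.conj_mem h h2 u⟩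
    · rintro ⟨h1, h2⟩
      refine ⟨?_, ?_⟩
      · have h3 := (T : Subgroup X).mul_mem ((T : Subgroup X).mul_mem
          ((T : Subgroup X).inv_mem hu') h1) hu'
        have h4 : u⁻¹ * (u * h * u⁻¹) * u = h := by group
        rwa [h4] at h3
      · have h3 := hN.conj_mem _ h2 u⁻¹
        simpa [mul_assoc] using h3
  have hcen : ∀ b ∈ normalizer (((T : Subgroup X) ⊓ N : Subgroup X) : Set X), b * w = w * b := by
    intro b hb
    have h := L_cen (Y := normalizer (((T : Subgroup X) ⊓ N : Subgroup X) : Set X))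
      (N.subgroupOf _) (L_relIndex N hi _ x (hTY hxT) hxN)
      (fun z hz => hI z (by rw [Subgroup.orderOf_coe, hz]))
      (fun g hg s t hs ht h1 h2 => Subtype.ext (hu g hg s t (by rw [Subgroup.orderOf_coe, hs])
        (by rw [Subgroup.orderOf_coe, ht]) (congrArg Subtype.val h1) (congrArg Subtype.val h2)))
      (T.subtype hTY)
      (fun y u h1 h2 => (((mem_normalizer_iff.1 y.2) u).1 ⟨h1, h2⟩).1)
      ⟨w, hTY hwT⟩ hwT ((Subgroup.orderOf_coe _).symm.trans hw2)
      (fun u hu' => Subtype.ext (hwc u hu')) ⟨b, hb⟩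
    exact congrArg Subtype.val h
  have hidx : ¬ 2 ∣ ((T : Subgroup X).subgroupOf N).index := by
    have h1 : (T : Subgroup X).relIndex N * N.index = ((T : Subgroup X) ⊓ N).index := by
      rw [← inf_relIndex_right, relIndex_mul_index inf_le_right]
    have h2 : N.relIndex (T : Subgroup X) * (T : Subgroup X).index =
        ((T : Subgroup X) ⊓ N).index := by
      rw [← inf_relIndex_left, relIndex_mul_index inf_le_left]
    rw [L_relIndex N hi _ x hxT hxN, ← h1, hi] at h2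
    have h3 : (T : Subgroup X).relIndex N = (T : Subgroup X).index := by omega
    change ¬ 2 ∣ (T : Subgroup X).relIndex N
    rw [h3]
    exact T.not_dvd_index
  have hP : IsPGroup 2 ((T : Subgroup X).subgroupOf N) :=
    T.isPGroup'.comap_of_injective N.subtype N.subtype_injective
  have main : ∀ s : X, orderOf s = 2 → (∀ u ∈ T, u ∈ N → u * s = s * u) → s = w := by
    intro s hs2 hsc
    obtain ⟨n, hnN, hn⟩ := hc w s hw2 hs2
    obtain ⟨b, hb, hbe⟩ := Sylow.conj_eq_normalizer_conj_of_mem_centralizer (hP.toSylow hidx)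
      ⟨w, hI w hw2⟩ (⟨n, hnN⟩ : N)⁻¹
      (fun u hu' => Subtype.ext (hwc u hu'))
      (fun u hu' => Subtype.ext (by
        have h1 := hsc u hu' u.2
        rw [← hn] at h1
        simpa using h1))
    have hbe' : n * w * n⁻¹ = (b : X)⁻¹ * w * b := by simpa using congrArg Subtype.val hbe
    have hbY : (b : X) ∈ normalizer (((T : Subgroup X) ⊓ N : Subgroup X) : Set X) := by
      rw [mem_normalizer_iff]
      intro h
      constructor
      · rintro ⟨h1, h2⟩
        exact ⟨((mem_normalizer_iff.1 hb) ⟨h, h2⟩).1 h1, hN.conj_mem h h2 _⟩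
      · rintro ⟨h1, h2⟩
        have h3 : h ∈ N := by
          have h4 := hN.conj_mem _ h2 (b : X)⁻¹
          simpa [mul_assoc] using h4
        exact ⟨((mem_normalizer_iff.1 hb) ⟨h, h3⟩).2 h1, h3⟩
    rw [← hn, hbe', mul_assoc, ← hcen _ hbY, inv_mul_cancel_left]
  intro s _ t _ hs ht h1 h2
  rw [main s hs h1, main t ht h2]

end CF.Csc
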