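import Mathlib

/-! One `N`-class of involutions from the odd-order ambiguity property. -/

namespace CF.Csc

open Subgroup

theorem o_index_conj {G : Type*} [Group G] (N : Subgroup G) [hN : N.Normal] (z g : G) :
    (N ⊔ centralizer {g * z * g⁻¹}).index = (N ⊔ centralizer {z}).index := by
  have h : (N ⊔ centralizer {g * z * g⁻¹}).comap (MulAut.conj g).toMonoidHom
      = N ⊔ centralizer {z} := by
    apply le_antisymm
    · intro x hx
      rw [mem_comap, ← SetLike.mem_coe, normal_mul] at hx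
      obtain ⟨n, hn, c, hc, e⟩ := hx
      have hc' : c * (g * z * g⁻¹) = (g * z * g⁻¹) * c := by
        have := (mem_centralizer_iff.1 hc) (g * z * g⁻¹) rfl
        exact this.symm
      have ex : x = (g⁻¹ * n * g⁻¹⁻¹) * (g⁻¹ * c * g) := by
        have e' : n * c = g * x * g⁻¹ := e
        have : x = g⁻¹ * (n * c) * g := by rw [e']; group
        rw [this]; group
      rw [ex]
      refine mul_mem (mem_sup_left (hN.conj_mem n hn g⁻¹)) (mem_sup_right ?_)
      rw [mem_centralizer_iff]
      intro y hy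
      rw [Set.mem_singleton_iff] at hy
      subst hy
      calc y * (g⁻¹ * c * g) = g⁻¹ * ((g * y * g⁻¹) * c) * g := by group
        _ = g⁻¹ * (c * (g * y * g⁻¹)) * g := by rw [hc']
        _ = g⁻¹ * c * g * y := by group
    · refine sup_le ?_ ?_
      · intro x hx
        rw [mem_comap]
        exact mem_sup_left (hN.conj_mem x hx g)
      · intro x hx
        rw [mem_comap]
        refine mem_sup_right ?_
        rw [mem_centralizer_iff]
        intro y hy
        rw [Set.mem_singleton_iff] at hy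
        subst hy
        have hx' : z * x = x * z := (mem_centralizer_iff.1 hx) z rfl
        change g * z * g⁻¹ * (g * x * g⁻¹) = g * x * g⁻¹ * (g * z * g⁻¹)
        calc g * z * g⁻¹ * (g * x * g⁻¹) = g * (z * x) * g⁻¹ := by group
          _ = g * (x * z) * g⁻¹ := by rw [hx']
          _ = g * x * g⁻¹ * (g * z * g⁻¹) := by group
  rw [← h, index_comap_of_surjective]
  exact (MulAut.conj g).surjective

theorem o_two_central {G : Type*} [Group G] [Finite G] (z : G) (hz : orderOf z = 2)
    (T : Sylow 2 G) : ∃ w : G, orderOf w = 2 ∧ ∀ a ∈ T, a * w = w * a := by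
  haveI : Fact (Nat.Prime 2) := ⟨Nat.prime_two⟩
  have h2 : 2 ∣ Nat.card G := hz ▸ orderOf_dvd_natCard z
  have hT : (T : Subgroup G) ≠ ⊥ := T.ne_bot_of_dvd_card h2
  haveI : Nontrivial (T : Subgroup G) := (nontrivial_iff_ne_bot _).2 hT
  haveI : Nontrivial (center (T : Subgroup G)) := T.isPGroup'.center_nontrivial
  have hp : IsPGroup 2 (center (T : Subgroup G)) := T.isPGroup'.to_subgroup _
  obtain ⟨k, hk0, hk⟩ := hp.nontrivial_iff_card.1 inferInstance
  have hd : 2 ∣ Nat.card (center (T : Subgroup G)) := by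
    rw [hk]; exact dvd_pow_self 2 hk0.ne'
  obtain ⟨w, hw⟩ := exists_prime_orderOf_dvd_card' 2 hd
  refine ⟨((w : (T : Subgroup G)) : G), ?_, ?_⟩
  · rw [orderOf_coe, orderOf_coe, hw]
  · intro a ha
    have := (mem_center_iff.1 w.2) ⟨a, ha⟩
    exact congrArg Subtype.val this

theorem one_class {G : Type*} [Group G] [Finite G] (N : Subgroup G) [N.Normal]
    (hc : ∀ z t : G, orderOf z = 2 → orderOf t = 2 → ∃ g : G, g * z * g⁻¹ = t)
    (amb : ∀ A : Subgroup G, Odd (Nat.card A) →
      ∃ z : G, orderOf z = 2 ∧ ∀ a ∈ A, ∃ n ∈ N, n * a * z = z * (n * a)) :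
    ∀ z t : G, orderOf z = 2 → orderOf t = 2 → ∃ n ∈ N, n * z * n⁻¹ = t := by
  intro z t hz ht
  have key : ∀ p : ℕ, p.Prime → ¬ p ∣ (N ⊔ centralizer {z}).index := by
    intro p hp
    haveI : Fact p.Prime := ⟨hp⟩
    obtain ⟨P⟩ : Nonempty (Sylow p G) := inferInstance
    have hw : ∃ w : G, orderOf w = 2 ∧ ∀ a ∈ P, ∃ n ∈ N, n * a * w = w * (n * a) := by
      by_cases h2 : p = 2
      · subst h2
        obtain ⟨w, hw, hwa⟩ := o_two_central z hz P
        exact ⟨w, hw, fun a ha => ⟨1, one_mem _, by rw [one_mul]; exact hwa a ha⟩⟩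
      · refine amb P ?_
        obtain ⟨k, hk⟩ := IsPGroup.iff_card.1 P.isPGroup'
        rw [hk]
        exact (hp.odd_of_ne_two h2).pow
    obtain ⟨w, hw, hwa⟩ := hw
    obtain ⟨g, hg⟩ := hc z w hz hw
    rw [← o_index_conj N z g, hg]
    have hle : (P : Subgroup G) ≤ N ⊔ centralizer {w} := by
      intro a ha
      obtain ⟨n, hn, e⟩ := hwa a ha
      have : a = n⁻¹ * (n * a) := by group
      rw [this]
      refine mul_mem (mem_sup_left (inv_mem hn)) (mem_sup_right ?_)
      rw [mem_centralizer_iff]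
      intro y hy
      rw [Set.mem_singleton_iff] at hy
      subst hy
      exact e.symm
    intro hd
    exact P.not_dvd_index (hd.trans (index_dvd_of_le hle))
  have h1 : (N ⊔ centralizer {z}).index = 1 :=
    Nat.eq_one_iff_not_exists_prime_dvd.2 key
  rw [index_eq_one] at h1
  obtain ⟨g, hg⟩ := hc z t hz ht
  have hgm : g ∈ N ⊔ centralizer {z} := h1 ▸ mem_top g
  rw [← SetLike.mem_coe, normal_mul] at hgm
  obtain ⟨n, hn, c, hcc, e⟩ := hgm
  have hc' : z * c = c * z := (mem_centralizer_iff.1 hcc) z rfl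
  refine ⟨n, hn, ?_⟩
  have e' : n * c = g := e
  rw [← hg, ← e']
  calc n * z * n⁻¹ = n * (z * c) * c⁻¹ * n⁻¹ := by group
    _ = n * (c * z) * c⁻¹ * n⁻¹ := by rw [hc']
    _ = n * c * z * (n * c)⁻¹ := by group

end CF.Csc
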