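import Cfsg.Agent.Solv.CyclicMax

namespace CF.Csc

open Subgroup CF.Solv

theorem P_zp {T : Type*} [Group T] {w x : T} (h2 : w ^ 2 = 1) (hx : x ∈ zpowers w) :
    x = 1 ∨ x = w := by
  obtain ⟨k, rfl⟩ := mem_zpowers_iff.mp hx
  have h2' : w ^ (2 : ℤ) = 1 := by exact_mod_cast h2
  rcases Int.even_or_odd' k with ⟨j, rfl | rfl⟩
  · left; rw [zpow_mul, h2', one_zpow]
  · right; rw [zpow_add, zpow_mul, h2', one_zpow, one_mul, zpow_one]

theorem P_o2 {T : Type*} [Group T] {x : T} (h2 : x ^ 2 = 1) (h1 : x ≠ 1) : orderOf x = 2 :=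
  haveI : Fact (Nat.Prime 2) := ⟨Nat.prime_two⟩
  orderOf_eq_prime h2 h1

theorem P_o4 {T : Type*} [Group T] {x : T} (h4 : (x ^ 2) ^ 2 = 1) (h1 : x ^ 2 ≠ 1) :
    orderOf x = 4 := by
  haveI : Fact (Nat.Prime 2) := ⟨Nat.prime_two⟩
  have := orderOf_eq_prime_pow (p := 2) (n := 1) (x := x) (by simpa using h1)
    (by rw [← pow_mul] at h4; simpa using h4)
  simpa using this

theorem P_ab {T : Type*} [Group T] [Finite T] (hT : IsPGroup 2 T) (N : Subgroup T)
    (hi : N.index = 2)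
    (hu : ∀ g ∉ N, ∀ s t : T, orderOf s = 2 → orderOf t = 2 → g * s = s * g → g * t = t * g → s = t)
    (hz : ∀ s t : T, orderOf s = 2 → orderOf t = 2 → (∀ u ∈ N, u * s = s * u) →
      (∀ u ∈ N, u * t = t * u) → s = t)
    (A : Subgroup T) [hA : A.Normal] [IsMulCommutative A] : IsCyclic A := by
  haveI : Fact (Nat.Prime 2) := ⟨Nat.prime_two⟩
  haveI := hT.isNilpotent
  have cm : ∀ a ∈ A, ∀ b ∈ A, Commute a b := fun a ha b hb =>
    congrArg Subtype.val (mul_comm' (⟨a, ha⟩ : A) ⟨b, hb⟩)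
  let E : Subgroup T :=
    { carrier := {a | a ∈ A ∧ a ^ 2 = 1}
      one_mem' := ⟨A.one_mem, one_pow _⟩
      mul_mem' := fun {a b} ha hb =>
        ⟨A.mul_mem ha.1 hb.1, by rw [(cm a ha.1 b hb.1).mul_pow, ha.2, hb.2, one_mul]⟩
      inv_mem' := fun {a} ha => ⟨A.inv_mem ha.1, by rw [inv_pow, ha.2, inv_one]⟩ }
  haveI hEn : E.Normal := ⟨fun a ha g => ⟨hA.conj_mem a ha.1 g, by rw [conj_pow, ha.2]; simp⟩⟩
  refine isCyclic_of_abelian_of_omega (hT.to_subgroup A) fun x hx y hy hx2 hy2 hx1 => ?_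
  have hE : E ≠ ⊥ := fun h => hx1 (mem_bot.mp (h ▸ (⟨hx, hx2⟩ : x ∈ E)))
  obtain ⟨⟨w, hwE, hwZ⟩, hw1⟩ :=
    ne_bot_iff_exists_ne_one.mp (normal_inf_center_ne_bot E hE)
  have hw1 : w ≠ 1 := fun h => hw1 (Subtype.ext h)
  have hwc : ∀ g : T, g * w = w * g := mem_center_iff.mp hwZ
  have key : ∀ s ∈ E, s ∈ zpowers w := by
    by_contra hk
    push Not at hk
    obtain ⟨s0, hs0, hs0'⟩ := hk
    haveI hWn : (zpowers w).Normal := ⟨fun a ha g => by
      rcases P_zp hwE.2 ha with rfl | rfl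
      · simp
      · rw [hwc, mul_inv_cancel_right]; exact mem_zpowers _⟩
    haveI := (hT.to_quotient (zpowers w)).isNilpotent
    haveI : (E.map (QuotientGroup.mk' (zpowers w))).Normal :=
      hEn.map _ (QuotientGroup.mk'_surjective _)
    have hne : E.map (QuotientGroup.mk' (zpowers w)) ≠ ⊥ := fun h => hs0' (by
      have := mem_bot.mp (h ▸ mem_map_of_mem (QuotientGroup.mk' (zpowers w)) hs0)
      exact (QuotientGroup.eq_one_iff _).mp this)
    obtain ⟨⟨_, ⟨s, hsE, rfl⟩, hsZ⟩, hs1⟩ :=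
      ne_bot_iff_exists_ne_one.mp (normal_inf_center_ne_bot _ hne)
    have hsW : s ∉ zpowers w := fun h =>
      hs1 (Subtype.ext ((QuotientGroup.eq_one_iff _).mpr h))
    have hs1' : s ≠ 1 := fun h => hsW (h ▸ one_mem _)
    have hsw : s ≠ w := fun h => hsW (h ▸ mem_zpowers _)
    have ho : ∀ g ∉ N, g * s = w * (s * g) := by
      intro g hg
      have h1 : g * s * (s * g)⁻¹ ∈ zpowers w := by
        rw [← QuotientGroup.eq_one_iff]
        have := mem_center_iff.mp hsZ (g : T ⧸ zpowers w)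
        simp only [QuotientGroup.mk'_apply] at this
        rw [QuotientGroup.mk_mul, QuotientGroup.mk_inv, QuotientGroup.mk_mul,
          QuotientGroup.mk_mul, this, mul_inv_cancel]
      rcases P_zp hwE.2 h1 with h | h
      · exact absurd (hu g hg s w (P_o2 hsE.2 hs1') (P_o2 hwE.2 hw1)
          (mul_inv_eq_one.mp h) (hwc g)) hsw
      · rw [← h]; group
    obtain ⟨g, hg⟩ : ∃ g, g ∉ N := by
      by_contra h
      push Not at h
      rw [(eq_top_iff' N).mpr h, index_top] at hi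
      omega
    refine hsw (hz s w (P_o2 hsE.2 hs1') (P_o2 hwE.2 hw1) (fun u hu' => ?_) fun u _ => hwc u)
    have h1 := ho (u * g) fun h => hg ((mul_mem_cancel_left hu').mp h)
    have h2 := ho g hg
    have h3 : u * g * s = w * (u * s * g) := by
      rw [mul_assoc, h2, ← mul_assoc, hwc u]; group
    rw [h3] at h1
    have h4 := mul_left_cancel h1
    rw [← mul_assoc] at h4
    exact mul_right_cancel h4
  rcases P_zp hwE.2 (key x ⟨hx, hx2⟩) with h | h
  · exact absurd h hx1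
  · rw [h]; exact key y ⟨hy, hy2⟩

theorem two_grp {T : Type*} [Group T] [Finite T] (hT : IsPGroup 2 T) (N : Subgroup T)
    (hi : N.index = 2) (hI : ∀ z : T, orderOf z = 2 → z ∈ N)
    (h4 : ∀ x y : T, orderOf x = 4 → orderOf y = 4 → y ∈ N → x ∈ N)
    (hu : ∀ g ∉ N, ∀ s t : T, orderOf s = 2 → orderOf t = 2 → g * s = s * g → g * t = t * g → s = t)
    (hz : ∀ s t : T, orderOf s = 2 → orderOf t = 2 → (∀ u ∈ N, u * s = s * u) →
      (∀ u ∈ N, u * t = t * u) → s = t) : IsCyclic T := by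
  haveI : Fact (Nat.Prime 2) := ⟨Nat.prime_two⟩
  refine (normalRankOne_cases hT fun A _ _ => P_ab hT N hi hu hz A).resolve_right ?_
  rintro ⟨-, n, a, c, hn, ha, hia, hc, hD, hc3⟩
  have hc1 : c ≠ 1 := fun h => hc (h ▸ one_mem _)
  have hca1 : c * a ≠ 1 := fun h => hc (by
    rw [eq_inv_of_mul_eq_one_left h]; exact inv_mem (mem_zpowers a))
  have hz1 : a ^ 2 ^ (n - 1) ≠ 1 := by
    rw [Ne, ← orderOf_dvd_iff_pow_eq_one, ha, Nat.pow_dvd_pow_iff_le_right one_lt_two]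
    omega
  have hz2 : (a ^ 2 ^ (n - 1)) ^ 2 = 1 := by
    rw [← pow_mul, ← pow_succ, Nat.sub_add_cancel (by omega), ← ha, pow_orderOf_eq_one]
  have fin : c ∈ N → c * a ∈ N → False := fun h1 h2 => by
    have h3 : closure ({c, a} : Set T) ≤ N := by
      rw [closure_le]
      rintro x (rfl | rfl)
      · exact h1
      · exact (mul_mem_cancel_left h1).mp h2
    rw [closure_pair_eq_top_of_index_prime Nat.prime_two hia hc, top_le_iff] at h3
    rw [h3, index_top] at hi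
    omega
  have sq : ∀ k : T, c * a * c⁻¹ = k → (c * a) ^ 2 = k * c ^ 2 * a := by
    rintro k rfl; rw [pow_two, pow_two]; group
  rcases hD with ⟨h1, h2⟩ | ⟨h1, h2⟩ | ⟨h3, h1, h2⟩
  · exact fin (hI c (P_o2 h1 hc1)) (hI _ (P_o2 (by rw [sq _ h2, h1]; simp) hca1))
  · have e : (c * a) ^ 2 = a ^ 2 ^ (n - 1) := by
      rw [sq _ h2, h1, ← (Commute.refl a).inv_left.pow_right _ |>.eq.symm]; simp
    have o1 : orderOf c = 4 := P_o4 (by rw [h1, hz2]) (by rw [h1]; exact hz1)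
    have o2 : orderOf (c * a) = 4 := P_o4 (by rw [e, hz2]) (by rw [e]; exact hz1)
    by_cases hcN : c ∈ N
    · exact fin hcN (h4 _ _ o2 o1 hcN)
    by_cases hcaN : c * a ∈ N
    · exact hcN (h4 _ _ o1 o2 hcaN)
    have haN : a ∈ N := by
      have := (mul_mem_iff_of_index_two hi (a := c⁻¹) (b := c * a)).mpr
        (by rw [inv_mem_iff]; exact iff_of_false hcN hcaN)
      simpa using this
    have o3 : orderOf (a ^ 2 ^ (n - 2)) = 4 := by
      have e2 : (a ^ 2 ^ (n - 2)) ^ 2 = a ^ 2 ^ (n - 1) := by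
        rw [← pow_mul, ← pow_succ]; congr 2; omega
      exact P_o4 (by rw [e2, hz2]) (by rw [e2]; exact hz1)
    exact hcN (h4 _ _ o1 o3 (pow_mem haN _))
  · have e : (c * a) ^ 2 = a ^ 2 ^ (n - 1) := by
      rw [sq _ h2, h1, mul_one, ← pow_succ, Nat.sub_add_cancel Nat.one_le_two_pow]
    have o2 : orderOf (c * a) = 4 := P_o4 (by rw [e, hz2]) (by rw [e]; exact hz1)
    have o3 : orderOf (a ^ 2 ^ (n - 2)) = 4 := by
      have e2 : (a ^ 2 ^ (n - 2)) ^ 2 = a ^ 2 ^ (n - 1) := by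
        rw [← pow_mul, ← pow_succ]; congr 2; omega
      exact P_o4 (by rw [e2, hz2]) (by rw [e2]; exact hz1)
    have hm : a ^ 2 ^ (n - 2) ∈ N := by
      have e3 : a ^ 2 ^ (n - 2) = (a ^ 2 ^ (n - 3)) ^ 2 := by
        rw [← pow_mul, ← pow_succ]; congr 2; omega
      rw [e3]; exact sq_mem_of_index_two hi _
    exact fin (hI c (P_o2 h1 hc1)) (h4 _ _ o2 o3 hm)

end CF.Csc
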