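import Mathlib

set_option autoImplicit false

namespace CF.Csc
open Subgroup

theorem q_lift {G : Type*} [Group G] [Finite G] (K : Subgroup G) [K.Normal] (x : G ⧸ K) {a : ℕ}
    (hx : orderOf x = 2 ^ a) : ∃ y : G, (y : G ⧸ K) = x ∧ ∃ m, orderOf y = 2 ^ m := by
  have hp : IsPGroup 2 (zpowers x) := IsPGroup.of_card (by rw [Nat.card_zpowers, hx])
  obtain ⟨P, hP⟩ := hp.exists_le_sylow
  obtain ⟨Q, hQ⟩ := Sylow.mapSurjective_surjective (QuotientGroup.mk'_surjective K) 2 P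
  have hxP : x ∈ (P : Subgroup (G ⧸ K)) := hP (mem_zpowers x)
  rw [← hQ, Sylow.coe_mapSurjective] at hxP
  obtain ⟨y, hy, e⟩ := hxP
  refine ⟨y, e, ?_⟩
  obtain ⟨m, hm⟩ := (IsPGroup.iff_orderOf.mp Q.isPGroup') ⟨y, hy⟩
  exact ⟨m, by rw [← hm, orderOf_mk]⟩

theorem q_ord_conj {G : Type*} [Group G] (g x : G) : orderOf (g * x * g⁻¹) = orderOf x :=
  (SemiconjBy.orderOf_eq g (by simp [SemiconjBy])).symm

theorem h2_quot {G : Type*} [Group G] [Finite G]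
    (h : ∀ (x y : G) (a b : ℕ), orderOf x = 2 ^ a → orderOf y = 2 ^ b → a ≤ b →
      ∃ g : G, g * x * g⁻¹ ∈ zpowers y)
    (K : Subgroup G) [K.Normal] :
    ∀ (x y : G ⧸ K) (a b : ℕ), orderOf x = 2 ^ a → orderOf y = 2 ^ b → a ≤ b →
      ∃ g : G ⧸ K, g * x * g⁻¹ ∈ zpowers y := by
  intro x y a b hx hy hab
  obtain ⟨x', rfl, m, hm⟩ := q_lift K x hx
  obtain ⟨y', rfl, n, hn⟩ := q_lift K y hy
  have key : ∀ u v g : G, g * u * g⁻¹ ∈ zpowers v →
      (g : G ⧸ K) * (u : G ⧸ K) * (g : G ⧸ K)⁻¹ ∈ zpowers (v : G ⧸ K) := by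
    rintro u v g ⟨k, hk⟩
    refine ⟨k, ?_⟩
    have := congrArg (QuotientGroup.mk' K) hk
    simpa using this
  rcases le_total m n with l | l
  · obtain ⟨g, hg⟩ := h x' y' m n hm hn l
    exact ⟨g, key _ _ _ hg⟩
  · obtain ⟨g, hg⟩ := h y' x' n m hn hm l
    have k := key _ _ _ hg
    have e : zpowers ((g : G ⧸ K) * (y' : G ⧸ K) * (g : G ⧸ K)⁻¹) = zpowers (x' : G ⧸ K) := by
      refine eq_of_le_of_card_ge (zpowers_le.mpr k) ?_
      rw [Nat.card_zpowers, Nat.card_zpowers, q_ord_conj, hx, hy]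
      exact Nat.pow_le_pow_right two_pos hab
    have k2 : (x' : G ⧸ K) ∈ zpowers ((g : G ⧸ K) * (y' : G ⧸ K) * (g : G ⧸ K)⁻¹) := by
      rw [e]; exact mem_zpowers _
    obtain ⟨j, hj⟩ := k2
    refine ⟨(g : G ⧸ K)⁻¹, j, ?_⟩
    simp only [conj_zpow] at hj
    simp only
    rw [← hj]; group

theorem h2_of {G : Type*} [Group G] [Finite G]
    (hP : ∀ A B : Subgroup G, IsCyclic ↥A → IsCyclic ↥B → IsPGroup 2 ↥A → Nat.card ↥A = Nat.card ↥B →
      ∃ g : G, B = A.map (MulAut.conj g).toMonoidHom) :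
    ∀ (x y : G) (a b : ℕ), orderOf x = 2 ^ a → orderOf y = 2 ^ b → a ≤ b →
      ∃ g : G, g * x * g⁻¹ ∈ zpowers y := by
  intro x y a b hx hy hab
  have hd : orderOf x ∣ orderOf y := by rw [hx, hy]; exact pow_dvd_pow 2 hab
  have ho : orderOf (y ^ (orderOf y / orderOf x)) = orderOf x :=
    orderOf_pow_orderOf_div (orderOf_pos y).ne' hd
  obtain ⟨g, hg⟩ := hP (zpowers x) (zpowers (y ^ (orderOf y / orderOf x))) inferInstance inferInstance
    (IsPGroup.of_card (by rw [Nat.card_zpowers, hx])) (by rw [Nat.card_zpowers, Nat.card_zpowers, ho])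
  refine ⟨g, ?_⟩
  have : g * x * g⁻¹ ∈ zpowers (y ^ (orderOf y / orderOf x)) := by
    rw [hg]; exact ⟨x, mem_zpowers x, rfl⟩
  exact zpowers_le.mpr (pow_mem (mem_zpowers y) _) this

theorem q_inv_conj {G : Type*} [Group G] [Finite G]
    (h : ∀ (x y : G) (a b : ℕ), orderOf x = 2 ^ a → orderOf y = 2 ^ b → a ≤ b →
      ∃ g : G, g * x * g⁻¹ ∈ zpowers y) :
    ∀ z t : G, orderOf z = 2 → orderOf t = 2 → ∃ g : G, g * z * g⁻¹ = t := by
  intro z t hz ht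
  obtain ⟨g, k, hk⟩ := h z t 1 1 (by simpa using hz) (by simpa using ht) le_rfl
  refine ⟨g, ?_⟩
  have o : orderOf (g * z * g⁻¹) = 2 := by rw [q_ord_conj, hz]
  simp only at hk
  rw [← hk] at o ⊢
  have t2 : t ^ (2 : ℤ) = 1 := by
    have := pow_orderOf_eq_one t
    rw [ht] at this
    exact_mod_cast this
  rcases Int.even_or_odd' k with ⟨j, rfl | rfl⟩
  · rw [zpow_mul, t2, one_zpow, orderOf_one] at o; omega
  · rw [zpow_add, zpow_mul, t2, one_zpow, one_mul, zpow_one]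

theorem q_mem {G : Type*} [Group G] [Finite G]
    (h : ∀ (x y : G) (a b : ℕ), orderOf x = 2 ^ a → orderOf y = 2 ^ b → a ≤ b →
      ∃ g : G, g * x * g⁻¹ ∈ zpowers y) (N : Subgroup G) [hN : N.Normal] {x y : G} {a : ℕ}
    (hx : orderOf x = 2 ^ a) (hy : orderOf y = 2 ^ a) (hyN : y ∈ N) : x ∈ N := by
  obtain ⟨g, hg⟩ := h x y a a hx hy le_rfl
  have := hN.conj_mem _ (zpowers_le.mpr hyN hg) g⁻¹
  simpa [mul_assoc] using this

end CF.Csc
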