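import Cfsg.Agent.Sig.Amb
import Cfsg.Agent.Fgs3.Misc

set_option autoImplicit false

namespace CF.Csc
open Subgroup Cfsg CF.Sig

theorem simple_normal {G : Type*} [Group G] [Finite G] [Nontrivial G]
    (h0 : ∀ M : Subgroup G, M.Normal → Group.IsSolvable M → M = ⊥)
    (hc : ∀ z t : G, orderOf z = 2 → orderOf t = 2 → ∃ g : G, g * z * g⁻¹ = t) :
    ∃ N : Subgroup G, N.Normal ∧ IsSimpleGroup N ∧ ¬ IsMulCommutative N := by
  have hF : fittingSubgroup G = ⊥ := h0 _ inferInstance fitting_isSolvable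
  obtain ⟨L, hL, -⟩ := exists_comp_le_of_le_centralizer_fitting (H := (⊤ : Subgroup G)) .top
    (by rw [hF]; simp) (by rw [hF]; simp)
  have hz : ∀ x ∈ L, x ∈ centralizer (L : Set G) → x = 1 := fun x a b => by
    have := center_comp_le_fitting hL (show x ∈ L ⊓ centralizer (L : Set G) from ⟨a, b⟩)
    rwa [hF, mem_bot] at this
  have ev : 2 ∣ Nat.card L := by
    by_contra hn
    exact qs_not_isSolvable hL.2 (CF.Hyp.isSolvable_of_odd (Nat.odd_iff.2 (by omega)))
  haveI : Fact (Nat.Prime 2) := ⟨Nat.prime_two⟩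
  obtain ⟨⟨t, tL⟩, ht⟩ := exists_prime_orderOf_dvd_card' 2 ev
  rw [orderOf_mk] at ht
  have t1 : t ≠ 1 := fun e => by rw [e, orderOf_one] at ht; omega
  have tt : t * t = 1 := by rw [← pow_two, ← ht, pow_orderOf_eq_one]
  have cj : ∀ g : G, IsComponent (L.map (MulAut.conj g).toMonoidHom) := fun g =>
    comp_map_of_surjective hL (MulAut.conj g).surjective (by
      rw [Ne, map_eq_bot_iff_of_injective _ (MulAut.conj g).injective]; exact comp_ne_bot hL)
  have mem : ∀ g : G, g * t * g⁻¹ ∈ L.map (MulAut.conj g).toMonoidHom := fun g => ⟨t, tL, rfl⟩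
  have ce : ∀ g : G, L.map (MulAut.conj g).toMonoidHom ≠ L →
      g * t * g⁻¹ ∈ centralizer (L : Set G) := fun g hg =>
    commutator_eq_bot_iff_le_centralizer.1 (comp_commutator_eq_bot_of_ne (cj g) hL hg) (mem g)
  have key : ∀ g : G, L.map (MulAut.conj g).toMonoidHom = L := fun g => by
    by_contra hg
    have uc := ce g hg
    set u := g * t * g⁻¹ with hu
    have u1 : u ≠ 1 := fun e => t1 (by rwa [hu, conj_eq_one_iff] at e)
    have uu : u * u = 1 := by rw [hu, conj_mul, tt, mul_one, mul_inv_cancel]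
    have cm : t * u = u * t := uc t tL
    have uL : u ∉ L := fun a => u1 (hz u a uc)
    have o2 : orderOf (t * u) = 2 := by
      refine orderOf_eq_prime ?_ fun e => uL ?_
      · rw [pow_two, mul_assoc, ← mul_assoc u, ← cm, mul_assoc, uu, mul_one, tt]
      · rw [eq_inv_of_mul_eq_one_right e]; exact L.inv_mem tL
    obtain ⟨h, hh⟩ := hc t (t * u) ht o2
    by_cases hm : L.map (MulAut.conj h).toMonoidHom = L
    · have := mem h
      rw [hm, hh] at this
      exact uL ((L.mul_mem_cancel_left tL).1 this)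
    · have := ce h hm
      rw [hh] at this
      exact t1 (hz t tL (((centralizer (L : Set G)).mul_mem_cancel_right uc).1 this))
  refine ⟨L, ⟨fun n hn g => key g ▸ ⟨n, hn, rfl⟩⟩, ?_, qs_not_isMulCommutative hL.2⟩
  haveI := qs_nontrivial hL.2
  refine ⟨fun N hN => ((qs_normal hL.2 N hN).symm.imp_left fun a => ?_)⟩
  refine eq_bot_iff.2 fun x hx => mem_bot.2 (Subtype.ext (hz x x.2 fun y hy => ?_))
  exact congrArg Subtype.val (mem_center_iff.1 (a hx) ⟨y, hy⟩)

end CF.Csc
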